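import Cfsg.Agent.H969.DPi.Frame
import Cfsg.Agent.H503.DP.CntLe
import Cfsg.Agent.H735.DP.List

/-!
# S4247, row `POmega`: the centraliser of `T` in a frame (helper602)

`Frame.ts`, `Frame.mn` : the blocks of a frame are minimal nondegenerate `T`-invariant subspaces.
`Frame.card_cent_le` : `|C(T)|` is at most the product of the `q^(dim U / 2) + 1` over the blocks `U`, times the number
of restrictions of `C(T)` to `C_V(T)`.
-/

set_option autoImplicit false
set_option linter.unusedSectionVars false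

namespace Cfsg.Agent.H602.DPO

open Module Subgroup Cfsg Cfsg.Agent.H167.OP Cfsg.Agent.H170.HL Cfsg.Agent.H988.CPi Cfsg.Agent.H560.HallKey
  Cfsg.Agent.H553.OddHall Cfsg.Agent.H571.RV Cfsg.Agent.H572.RV Cfsg.Agent.H602.DP Cfsg.Agent.H969.DPi

variable {F : Type*} [Field F] [Finite F] {V : Type*} [AddCommGroup V] [Module F V] [Finite V]
  [FiniteDimensional F V] {K : Type*} [Group K] [Finite K]
  {ρ : Representation F K V} {f : V →ₗ[F] V →ₗ[F] F} {Q : V → F} {π : Set ℕ} {H : Subgroup K} {r t : ℕ}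

theorem std_of (h : Frame ρ f Q π H r t) : Std ρ f Q t H :=
  h.toIsoG.std h.two h.char h.hall h.tp h.tπ

/-- the Sylow subgroup `T` -/
theorem ts_of (h : Frame ρ f Q π H r t) : TS ρ f Q t (Subgroup.closure (Zs ρ t H)) where
  toIsoG := h.toIsoG
  ht := h.tp
  hto := odd_of h.two h.tp h.tπ
  htF := h.char t h.tπ h.tp
  hT := (std_of h).closure_comm.2
  ab := (std_of h).closure_comm.1
  mx := by
    intro y hy hc
    have htf := Fact.mk h.tp
    set T := Subgroup.closure (Zs ρ t H) with hTd
    have h1 : IsPGroup t T := (std_of h).closure_comm.2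
    -- the subgroup generated by `T` and `y`
    have h2 : IsPGroup t (Subgroup.zpowers y) := by
      obtain ⟨k, hk⟩ := hy
      rintro ⟨x, hx⟩
      obtain ⟨i, rfl⟩ := Subgroup.mem_zpowers_iff.mp hx
      refine ⟨k, Subtype.ext ?_⟩
      show (y ^ i) ^ t ^ k = 1
      rw [← zpow_natCast, ← zpow_mul, mul_comm, zpow_mul, zpow_natCast, hk, one_zpow]
    have h3 : Subgroup.zpowers y ≤ Subgroup.normalizer (T : Set K) := by
      rw [Subgroup.zpowers_le, Subgroup.mem_normalizer_iff]
      intro z
      constructor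
      · intro hz
        have h4 : y * z * y⁻¹ = z := by rw [← hc z hz, mul_inv_cancel_right]
        rw [h4]; exact hz
      · intro hz
        have h4 := hc _ hz
        have h5 : z = y * z * y⁻¹ := by
          have h6 : y * z * y⁻¹ * y = y * (y * z * y⁻¹) := h4
          have h7 : z = y * z * y⁻¹ := by
            have := congrArg (fun x => y⁻¹ * x) h6
            simpa [mul_assoc] using this
          exact h7
        rw [h5]; exact hz
    have h4 : IsPGroup t (Subgroup.zpowers y ⊔ T : Subgroup K) := IsPGroup.to_sup_of_normal_right' h2 h1 h3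
    -- `T` is a Sylow subgroup
    have h5 : T.relIndex (Subgroup.zpowers y ⊔ T) = 1 := by
      by_contra hne
      obtain ⟨s, hs, hd⟩ := Nat.exists_prime_and_dvd hne
      have h6 : s = t := by
        obtain ⟨n, hn⟩ := IsPGroup.iff_card.mp h4
        have h7 : s ∣ t ^ n := by rw [← hn]; exact hd.trans (Subgroup.relIndex_dvd_card _ _)
        exact (Nat.prime_dvd_prime_iff_eq hs h.tp).mp (hs.dvd_of_dvd_pow h7)
      subst h6
      exact h.syl (hd.trans (Subgroup.relIndex_dvd_index_of_le le_sup_right))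
    exact (Subgroup.relIndex_eq_one.mp h5) (Subgroup.mem_sup_left (Subgroup.mem_zpowers y))

theorem mn_of (h : Frame ρ f Q π H r t) {U : Submodule F V} (hU : U ∈ Bl ρ t H) :
    Mn ρ f (Subgroup.closure (Zs ρ t H)) U := by
  have hs := std_of h
  have hT := ts_of h
  have hnd := hs.nd_bl hU
  obtain ⟨z, hz, rfl, hz1, hmin⟩ := hU
  have hzT : z ∈ Subgroup.closure (Zs ρ t H) := Subgroup.subset_closure hz
  have hinv : Inv ρ (Subgroup.closure (Zs ρ t H)) (sp ρ z) := fun w hw u hu =>
    map_mem_of_comm (hs.closure_comm.1 w hw z hzT) hu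
  have hfx : ∀ u ∈ sp ρ z, ρ z u = u → u = 0 := by
    intro u hu hzu
    have h1 : u ∈ Orth f (sp ρ z) := (mem_Orth_sp h.toIsoG).mpr hzu
    exact hnd u hu fun x hx => h1 x hx
  refine ⟨hinv, hnd, ?_, ?_⟩
  · obtain ⟨u, hu, hu0⟩ := (Submodule.ne_bot_iff _).mp (fun hb => hz1 ((sp_eq_bot h.inj).mp hb))
    exact ⟨z, hzT, u, hu, fun hzu => hu0 (hfx u hu hzu)⟩
  · intro X hX hXi hXn
    obtain ⟨k, hk⟩ := h.toIsoG.exists_part hXn (fun u hu => hXi z hzT u hu)
    have hkt := hk.tel h.toIsoG hXn (fun u hu => hXi z hzT u hu) hz.2.1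
    -- `k` commutes with `T`
    have hkT : k ∈ Subgroup.closure (Zs ρ t H) := by
      apply hT.mx k hkt
      intro w hw
      have h1 := hk.conj h.toIsoG w
      have h2 : X.map (ρ w) = X := map_eq_of_le (by
        rintro _ ⟨u, hu, rfl⟩
        exact hXi w hw u hu)
      have h3 : w * z * w⁻¹ = z := by
        rw [hs.closure_comm.1 w hw z hzT, mul_inv_cancel_right]
      rw [h2, h3] at h1
      have h4 := h1.unique h.inj hXn hk
      calc w * k = (w * k * w⁻¹) * w := by group
        _ = k * w := by rw [h4]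
    have hkZ : k ∈ Zs ρ t H := ⟨closure_le_H hkT, small_of_sp_le hkt hz.2 (hk.sp_le' hXn)⟩
    by_cases hk1 : k = 1
    · left
      rw [eq_bot_iff]
      intro x hx
      rw [Submodule.mem_bot]
      apply hfx x (hX hx)
      rw [← hk.1 x hx, hk1, one_ap]
    · right
      have h1 := hk.sp_le hXn (fun u hu => hXi z hzT u hu)
      have h2 := hmin k hkZ hk1 (h1.trans hX)
      exact le_antisymm hX (h2 ▸ h1)

end Cfsg.Agent.H602.DPO
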