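import Cfsg.Agent.H602.DPO.Cnt
import Mathlib.LinearAlgebra.QuadraticForm.Basic

/-!
# S4247, row `POmega`: restrictions of isometries to a nondegenerate space of dimension at most two (helper602)
-/

set_option autoImplicit false
set_option linter.unusedSectionVars false

namespace Cfsg.Agent.H602.DPO

open Module Subgroup Cfsg Cfsg.Agent.H167.OP Cfsg.Agent.H170.HL Cfsg.Agent.H988.CPi Cfsg.Agent.H560.HallKey
  Cfsg.Agent.H553.OddHall Cfsg.Agent.H571.RV Cfsg.Agent.H572.RV Cfsg.Agent.H602.DP Cfsg.Agent.H969.DPi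

variable {F : Type*} [Field F] [Finite F] {V : Type*} [AddCommGroup V] [Module F V] [Finite V]
  [FiniteDimensional F V] {K : Type*} [Group K] [Finite K]
  {ρ : Representation F K V} {Q : QuadraticForm F V} {T : Subgroup K} {U : Submodule F V}

local notation "fQ" => QuadraticMap.polarBilin Q

theorem polar_self (v : V) : QuadraticMap.polarBilin Q v v = 2 * Q v := by
  rw [QuadraticMap.polarBilin_apply_apply, QuadraticMap.polar_self, two_nsmul, two_mul]

theorem Q_add (v w : V) : Q (v + w) = Q v + Q w + QuadraticMap.polarBilin Q v w := by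
  rw [QuadraticMap.polarBilin_apply_apply, QuadraticMap.polar]; ring

theorem polar_symm' (v w : V) : QuadraticMap.polarBilin Q v w = QuadraticMap.polarBilin Q w v := by
  rw [QuadraticMap.polarBilin_apply_apply, QuadraticMap.polarBilin_apply_apply, QuadraticMap.polar_comm]

theorem Q_smul (a : F) (v : V) : Q (a • v) = a ^ 2 * Q v := by
  rw [QuadraticMap.map_smul, smul_eq_mul, pow_two]

theorem pol_smul (a : F) (v w : V) : QuadraticMap.polarBilin Q v (a • w) = a * QuadraticMap.polarBilin Q v w := by
  rw [LinearMap.map_smul, smul_eq_mul]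

theorem pol_smul' (a : F) (v w : V) : QuadraticMap.polarBilin Q (a • v) w = a * QuadraticMap.polarBilin Q v w := by
  rw [LinearMap.map_smul, LinearMap.smul_apply, smul_eq_mul]

theorem pol_add (u v w : V) : QuadraticMap.polarBilin Q u (v + w) =
    QuadraticMap.polarBilin Q u v + QuadraticMap.polarBilin Q u w := LinearMap.map_add _ _ _

theorem pol_add' (u v w : V) : QuadraticMap.polarBilin Q (u + v) w =
    QuadraticMap.polarBilin Q u w + QuadraticMap.polarBilin Q v w := by
  rw [LinearMap.map_add, LinearMap.add_apply]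

theorem cnt_zero (hU : finrank F U = 0) : cnt ρ T U ≤ 1 := by
  have h1 : U = ⊥ := Submodule.finrank_eq_zero.mp hU
  subst h1
  have : Subsingleton (Set.range fun u : Subgroup.centralizer (T : Set K) =>
      (ρ (u : K)).domRestrict (⊥ : Submodule F V)) := by
    constructor
    intro a b
    apply Subtype.ext
    apply LinearMap.ext
    rintro ⟨x, hx⟩
    rw [Submodule.mem_bot] at hx
    subst hx
    have h2 : (⟨0, hx⟩ : (⊥ : Submodule F V)) = 0 := rfl
    rw [h2, map_zero, map_zero]
  exact Finite.card_le_one_iff_subsingleton.mpr this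

theorem cnt_one (hQ : ∀ g v, Q (ρ g v) = Q v) (hnd : ND (QuadraticMap.polarBilin Q) U) (hU : finrank F U = 1)
    (hC : ∀ u ∈ Subgroup.centralizer (T : Set K), ∀ x ∈ U, ρ u x ∈ U) : cnt ρ T U ≤ 2 := by
  classical
  obtain ⟨⟨v, hv⟩, hv0, hsp⟩ := finrank_eq_one_iff'.mp hU
  have hsp' : ∀ w ∈ U, ∃ c : F, w = c • v := by
    intro w hw
    obtain ⟨c, hc⟩ := hsp ⟨w, hw⟩
    exact ⟨c, (congrArg Subtype.val hc).symm⟩
  have hv0' : v ≠ 0 := fun h => hv0 (Subtype.ext h)
  have hQv : Q v ≠ 0 := by
    intro h
    apply hv0'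
    apply hnd v hv
    intro x hx
    obtain ⟨c, rfl⟩ := hsp' x hx
    rw [map_smul, LinearMap.smul_apply, polar_self, h, mul_zero, smul_zero]
  have key : ∀ u ∈ Subgroup.centralizer (T : Set K), ρ u v = v ∨ ρ u v = (-1 : F) • v := by
    intro u hu
    obtain ⟨c, hc⟩ := hsp' _ (hC u hu v hv)
    have h1 := hQ u v
    rw [hc, Q_smul] at h1
    have h2 : (c - 1) * (c + 1) = 0 := by
      have h3 : (c ^ 2 - 1) * Q v = 0 := by rw [sub_mul, h1, one_mul, sub_self]
      rcases mul_eq_zero.mp h3 with h4 | h4
      · linear_combination h4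
      · exact absurd h4 hQv
    rcases mul_eq_zero.mp h2 with h3 | h3
    · left; rw [hc, sub_eq_zero.mp h3, one_smul]
    · right; rw [hc, eq_neg_of_add_eq_zero_left h3]
  unfold cnt
  have hinj : Function.Injective fun A : (Set.range fun u : Subgroup.centralizer (T : Set K) =>
      (ρ (u : K)).domRestrict U) => (decide ((A : U →ₗ[F] V) ⟨v, hv⟩ = v) : Bool) := by
    rintro ⟨A, u, rfl⟩ ⟨A', u', rfl⟩ hAA
    apply Subtype.ext
    apply LinearMap.ext
    rintro ⟨x, hx⟩
    obtain ⟨c, rfl⟩ := hsp' x hx
    have e : ∀ w : K, (ρ w).domRestrict U ⟨c • v, hx⟩ = c • ρ w v := fun w => by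
      show ρ w (c • v) = _
      rw [map_smul]
    rw [e, e]
    have hAA' : (ρ (u : K) v = v) ↔ (ρ (u' : K) v = v) := by
      have := decide_eq_decide.mp hAA
      exact this
    rcases key u u.2 with h1 | h1
    · rw [h1, hAA'.mp h1]
    · rcases key u' u'.2 with h2 | h2
      · rw [h2, hAA'.mpr h2]
      · rw [h1, h2]
  have := Nat.card_le_card_of_injective _ hinj
  rwa [Nat.card_eq_fintype_card (α := Bool), Fintype.card_bool] at this

section two

variable {e n m : V}

/-- vectors of given norm in a plane -/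
theorem eq_of_norm {e n m : V} (hen : QuadraticMap.polarBilin Q e n = 0) (hem : QuadraticMap.polarBilin Q e m = 1)
    (hn : Q n ≠ 0) {x y : F} (h : Q (e + (x • m + y • n)) = Q e) :
    (x = 0 ∧ y = 0) ∨ ∃ s : F, e + (x • m + y • n) = e - (Q (m + s • n))⁻¹ • (m + s • n) := by
  by_cases hx : x = 0
  · left
    subst hx
    refine ⟨rfl, ?_⟩
    rw [zero_smul, zero_add, Q_add, pol_smul, hen, mul_zero, add_zero, Q_smul] at h
    have h1 : y ^ 2 * Q n = 0 := by linear_combination h
    rcases mul_eq_zero.mp h1 with h2 | h2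
    · exact pow_eq_zero_iff (two_ne_zero) |>.mp h2
    · exact absurd h2 hn
  · right
    refine ⟨y / x, ?_⟩
    have h1 : x • m + y • n = x • (m + (y / x) • n) := by
      rw [smul_add, smul_smul, mul_div_cancel₀ _ hx]
    rw [h1] at h ⊢
    rw [Q_add, Q_smul, pol_smul, pol_add, pol_smul, hen, hem, mul_zero, add_zero, mul_one] at h
    have h2 : x * (x * Q (m + (y / x) • n) + 1) = 0 := by linear_combination h
    have h3 : x * Q (m + (y / x) • n) + 1 = 0 := (mul_eq_zero.mp h2).resolve_left hx
    have h4 : Q (m + (y / x) • n) ≠ 0 := by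
      intro h4
      rw [h4, mul_zero, zero_add] at h3
      exact one_ne_zero h3
    have h5 : x = - (Q (m + (y / x) • n))⁻¹ := by
      rw [eq_neg_iff_add_eq_zero, ← mul_left_inj' h4, add_mul, inv_mul_cancel₀ h4, zero_mul]
      exact h3
    rw [sub_eq_add_neg, ← neg_smul, ← h5]

end two

theorem cnt_two (hQ : ∀ g v, Q (ρ g v) = Q v) (hnd : ND (QuadraticMap.polarBilin Q) U) (hU : finrank F U = 2)
    (hC : ∀ u ∈ Subgroup.centralizer (T : Set K), ∀ x ∈ U, ρ u x ∈ U) : cnt ρ T U ≤ 2 * (Nat.card F + 1) := by
  classical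
  have hsy := polar_symm' (Q := Q)
  -- a vector with nonzero norm
  obtain ⟨e, he, hQe⟩ : ∃ e ∈ U, Q e ≠ 0 := by
    by_contra hcon
    push Not at hcon
    have h1 : U = ⊥ := by
      rw [eq_bot_iff]
      intro x hx
      apply hnd x hx
      intro y hy
      have h2 := Q_add (Q := Q) y x
      rw [hcon _ (U.add_mem hy hx), hcon _ hy, hcon _ hx, add_zero, zero_add] at h2
      exact h2.symm
    rw [h1, finrank_bot] at hU
    omega
  have he0 : e ≠ 0 := by rintro rfl; exact hQe (map_zero Q)
  -- a vector `m` with `f e m = 1`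
  obtain ⟨m, hm, hem⟩ : ∃ m ∈ U, QuadraticMap.polarBilin Q e m = 1 := by
    by_contra hcon
    push Not at hcon
    apply he0
    apply hnd e he
    intro x hx
    by_contra h
    have h' : QuadraticMap.polarBilin Q e x ≠ 0 := by rwa [hsy]
    apply hcon ((QuadraticMap.polarBilin Q e x)⁻¹ • x) (U.smul_mem _ hx)
    rw [map_smul, smul_eq_mul, inv_mul_cancel₀ h']
  -- a vector `n` orthogonal to `e`
  obtain ⟨n, hn, hn0, hen⟩ : ∃ n ∈ U, n ≠ 0 ∧ QuadraticMap.polarBilin Q e n = 0 := by
    have h1 : ∃ x ∈ U, x ∉ Submodule.span F {m} := by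
      by_contra hcon
      push Not at hcon
      have h2 : U ≤ Submodule.span F {m} := hcon
      have h3 := Submodule.finrank_mono h2
      have h4 : finrank F (Submodule.span F {m}) ≤ 1 := by
        have := finrank_span_le_card (R := F) ({m} : Set V)
        simpa using this
      omega
    obtain ⟨x, hx, hxm⟩ := h1
    refine ⟨x - (QuadraticMap.polarBilin Q e x) • m, U.sub_mem hx (U.smul_mem _ hm), ?_, ?_⟩
    · intro h
      apply hxm
      rw [sub_eq_zero.mp h]
      exact Submodule.smul_mem _ _ (Submodule.mem_span_singleton_self m)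
    · rw [map_sub, map_smul, hem, smul_eq_mul, mul_one, sub_self]
  -- `m`, `n` span `U`
  have hspan : ∀ v ∈ U, ∃ x y : F, v = x • m + y • n := by
    have h1 : LinearIndependent F ![m, n] := by
      rw [LinearIndependent.pair_iff]
      intro s s' h
      have h2 := congrArg (QuadraticMap.polarBilin Q e) h
      rw [pol_add, pol_smul, pol_smul, hem, hen, map_zero, mul_zero, add_zero, mul_one] at h2
      refine ⟨h2, ?_⟩
      rw [h2, zero_smul, zero_add, smul_eq_zero] at h
      exact h.resolve_right hn0
    have h2 : Submodule.span F (Set.range ![m, n]) = U := by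
      apply Submodule.eq_of_le_of_finrank_eq
      · rw [Submodule.span_le]
        rintro _ ⟨i, rfl⟩
        fin_cases i
        · exact hm
        · exact hn
      · rw [finrank_span_eq_card h1, hU, Fintype.card_fin]
    intro v hv
    rw [← h2] at hv
    have h3 : Set.range ![m, n] = {m, n} := by
      ext x
      simp only [Set.mem_range, Fin.exists_fin_two, Matrix.cons_val_zero, Matrix.cons_val_one, Set.mem_insert_iff,
        Set.mem_singleton_iff]
      tauto
    rw [h3, Submodule.mem_span_pair] at hv
    obtain ⟨x, y, h⟩ := hv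
    exact ⟨x, y, h.symm⟩
  have hQn : Q n ≠ 0 := by
    intro h0
    -- `e = x m + y n`, `f n n = 0`, `f n e = 0`
    obtain ⟨x, y, hxy⟩ := hspan e he
    have h1 : QuadraticMap.polarBilin Q n n = 0 := by rw [polar_self, h0, mul_zero]
    have hx : x ≠ 0 := by
      rintro rfl
      rw [zero_smul, zero_add] at hxy
      apply hQe
      rw [hxy, Q_smul, h0, mul_zero]
    have h2 : QuadraticMap.polarBilin Q m n = 0 := by
      have h3 := hen
      rw [hxy, pol_add', pol_smul', pol_smul', h1, mul_zero, add_zero] at h3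
      exact (mul_eq_zero.mp h3).resolve_left hx
    apply hn0
    apply hnd n hn
    intro v hv
    obtain ⟨x', y', rfl⟩ := hspan v hv
    rw [pol_add', pol_smul', pol_smul', h1, h2, mul_zero, mul_zero, add_zero]
  have hen_span : ∀ v ∈ U, ∃ x y : F, v = e + (x • m + y • n) := by
    intro v hv
    obtain ⟨x, y, h⟩ := hspan (v - e) (U.sub_mem hv he)
    exact ⟨x, y, by rw [← h]; abel⟩
  -- the images of `e`
  have := Fintype.ofFinite F
  let S : Finset V := insert e (Finset.univ.image fun s : F => e - (Q (m + s • n))⁻¹ • (m + s • n))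
  have hS : S.card ≤ Nat.card F + 1 := by
    refine (Finset.card_insert_le _ _).trans (Nat.add_le_add_right ?_ 1)
    refine Finset.card_image_le.trans ?_
    rw [Finset.card_univ, Nat.card_eq_fintype_card]
  have hSm : ∀ v ∈ U, Q v = Q e → v ∈ S := by
    intro v hv hQv
    obtain ⟨x, y, rfl⟩ := hen_span v hv
    rcases eq_of_norm hen hem hQn hQv with ⟨rfl, rfl⟩ | ⟨s, hs⟩
    · rw [zero_smul, zero_smul, add_zero, add_zero]
      exact Finset.mem_insert_self _ _
    · rw [hs]
      exact Finset.mem_insert_of_mem (Finset.mem_image.mpr ⟨s, Finset.mem_univ _, rfl⟩)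
  -- an isometry of `U` fixing `e`
  have hf : ∀ (u : K) (v w : V), QuadraticMap.polarBilin Q (ρ u v) (ρ u w) = QuadraticMap.polarBilin Q v w := by
    intro u v w
    have h1 := Q_add (Q := Q) (ρ u v) (ρ u w)
    have h2 := Q_add (Q := Q) v w
    rw [← map_add, hQ, hQ, hQ] at h1
    linear_combination h2 - h1
  have hfix : ∀ u ∈ Subgroup.centralizer (T : Set K), ρ u e = e → ∀ w ∈ U,
      ρ u w = w ∨ ρ u w = w + (- ((Q n)⁻¹ * QuadraticMap.polarBilin Q w n)) • n := by
    intro u hu hue w hw
    obtain ⟨x, y, hxy⟩ := hspan (ρ u w - w) (U.sub_mem (hC u hu w hw) hw)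
    have hx : x = 0 := by
      have h1 := hf u e w
      have h2 : ρ u w = w + (x • m + y • n) := by rw [← hxy]; abel
      rw [hue, h2, pol_add, pol_add, pol_smul, pol_smul, hem, hen] at h1
      linear_combination h1
    subst hx
    have h2 : ρ u w = w + y • n := by
      rw [zero_smul, zero_add] at hxy
      rw [← hxy]; abel
    have h1 := hQ u w
    rw [h2, Q_add, Q_smul, pol_smul] at h1
    have h2' : y * (y * Q n + QuadraticMap.polarBilin Q w n) = 0 := by linear_combination h1
    rcases mul_eq_zero.mp h2' with h3 | h3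
    · left; rw [h2, h3, zero_smul, add_zero]
    · right
      have h4 : y = - ((Q n)⁻¹ * QuadraticMap.polarBilin Q w n) := by
        have h5 : (Q n)⁻¹ * (y * Q n + QuadraticMap.polarBilin Q w n) = 0 := by rw [h3, mul_zero]
        have h6 : (Q n)⁻¹ * (y * Q n) = y := by
          rw [mul_comm y, ← mul_assoc, inv_mul_cancel₀ hQn, one_mul]
        rw [mul_add, h6] at h5
        exact eq_neg_of_add_eq_zero_left h5
      rw [h2, h4]
  -- a second basis vector
  obtain ⟨w, hw, hwe⟩ : ∃ w ∈ U, w ∉ Submodule.span F {e} := by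
    by_contra hcon
    push Not at hcon
    have h2 : U ≤ Submodule.span F {e} := hcon
    have h3 := Submodule.finrank_mono h2
    have h4 : finrank F (Submodule.span F {e}) ≤ 1 := by
      have := finrank_span_le_card (R := F) ({e} : Set V)
      simpa using this
    omega
  have hspw : ∀ v ∈ U, ∃ x y : F, v = x • e + y • w := by
    have h1 : LinearIndependent F ![e, w] := by
      rw [LinearIndependent.pair_iff]
      intro s s' h
      have hs' : s' = 0 := by
        by_contra hs'
        apply hwe
        have h2 : w = (- (s'⁻¹ * s)) • e := by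
          have h3 : s' • w = - (s • e) := eq_neg_of_add_eq_zero_right h
          have h4 : s'⁻¹ • (s' • w) = s'⁻¹ • (- (s • e)) := by rw [h3]
          rw [smul_smul, inv_mul_cancel₀ hs', one_smul] at h4
          rw [h4, smul_neg, smul_smul, neg_smul]
        rw [h2]
        exact Submodule.smul_mem _ _ (Submodule.mem_span_singleton_self e)
      refine ⟨?_, hs'⟩
      rw [hs', zero_smul, add_zero, smul_eq_zero] at h
      exact h.resolve_right he0
    have h2 : Submodule.span F (Set.range ![e, w]) = U := by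
      apply Submodule.eq_of_le_of_finrank_eq
      · rw [Submodule.span_le]
        rintro _ ⟨i, rfl⟩
        fin_cases i
        · exact he
        · exact hw
      · rw [finrank_span_eq_card h1, hU, Fintype.card_fin]
    intro v hv
    rw [← h2] at hv
    have h3 : Set.range ![e, w] = {e, w} := by
      ext x
      simp only [Set.mem_range, Fin.exists_fin_two, Matrix.cons_val_zero, Matrix.cons_val_one, Set.mem_insert_iff,
        Set.mem_singleton_iff]
      tauto
    rw [h3, Submodule.mem_span_pair] at hv
    obtain ⟨x, y, h⟩ := hv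
    exact ⟨x, y, h.symm⟩
  -- the count
  unfold cnt
  let R : Set (U →ₗ[F] V) := Set.range fun u : Subgroup.centralizer (T : Set K) => (ρ (u : K)).domRestrict U
  have hRf : Fintype R := Fintype.ofFinite R
  show Nat.card R ≤ _
  rw [Nat.card_eq_fintype_card, ← Finset.card_univ]
  refine (Finset.card_le_mul_card_image_of_maps_to (s := (Finset.univ : Finset R)) (t := S)
    (f := fun A : R => (A : U →ₗ[F] V) ⟨e, he⟩) ?_ 2 ?_).trans (Nat.mul_le_mul_left 2 hS)
  · rintro ⟨_, u, rfl⟩ -
    show ρ (u : K) e ∈ S
    exact hSm _ (hC u u.2 e he) (hQ _ _)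
  · intro b hb
    by_cases hne : ∃ A : R, (A : U →ₗ[F] V) ⟨e, he⟩ = b
    · obtain ⟨⟨_, u₁, rfl⟩, hA₁⟩ := hne
      have hA₁' : ρ (u₁ : K) e = b := hA₁
      have himg : (Finset.univ.filter fun A : R => (A : U →ₗ[F] V) ⟨e, he⟩ = b).card ≤
          ({ρ (u₁ : K) w, ρ (u₁ : K) (w + (- ((Q n)⁻¹ * QuadraticMap.polarBilin Q w n)) • n)} : Finset V).card := by
        refine Finset.card_le_card_of_injOn (fun A : R => (A : U →ₗ[F] V) ⟨w, hw⟩) ?_ ?_
        · rintro ⟨_, u, rfl⟩ hA
          rw [Finset.mem_coe, Finset.mem_filter] at hA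
          have hA' : ρ (u : K) e = b := hA.2
          have hfe : ρ ((u₁ : K)⁻¹ * u) e = e := by
            rw [mul_ap, hA', ← hA₁', inv_ap]
          have hmem : (u₁ : K)⁻¹ * u ∈ Subgroup.centralizer (T : Set K) := mul_mem (inv_mem u₁.2) u.2
          rw [Finset.mem_coe, Finset.mem_insert, Finset.mem_singleton]
          show ρ (u : K) w = _ ∨ ρ (u : K) w = _
          rcases hfix _ hmem hfe w hw with h1 | h1
          · left
            have h2 := congrArg (ρ (u₁ : K)) h1
            rwa [mul_ap, ap_inv] at h2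
          · right
            have h2 := congrArg (ρ (u₁ : K)) h1
            rwa [mul_ap, ap_inv] at h2
        · rintro ⟨_, u, rfl⟩ hA ⟨_, u', rfl⟩ hA' hww
          rw [Finset.mem_coe, Finset.mem_filter] at hA hA'
          have h1 : ρ (u : K) e = b := hA.2
          have h2 : ρ (u' : K) e = b := hA'.2
          have h3 : ρ (u : K) w = ρ (u' : K) w := hww
          apply Subtype.ext
          apply LinearMap.ext
          rintro ⟨v, hv⟩
          show ρ (u : K) v = ρ (u' : K) v
          obtain ⟨x, y, rfl⟩ := hspw v hv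
          rw [map_add, map_add, map_smul, map_smul, map_smul, map_smul, h1, h2, h3]
      exact himg.trans (Finset.card_insert_le _ _)
    · push Not at hne
      have h1 : (Finset.univ.filter fun A : R => (A : U →ₗ[F] V) ⟨e, he⟩ = b) = ∅ := by
        rw [Finset.filter_eq_empty_iff]
        intro A _
        exact hne A
      rw [h1, Finset.card_empty]
      omega

end Cfsg.Agent.H602.DPO
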