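import Cfsg.Agent.H602.DPO.Perm
import Cfsg.Agent.H602.DPO.SmallO
import Cfsg.Agent.H462.DPK.K
import Cfsg.Agent.H462.DPK.LM
import Cfsg.Agent.H704.DPi.NumO
import Cfsg.Agent.H170.HL.OmRow
import Cfsg.Agent.H572.RV.Rows

/-!
# S4247, row `POmega`: the case `dim C_V(T) ≤ 2` (helper602)
-/

set_option autoImplicit false
set_option linter.unusedSectionVars false

namespace Cfsg.Agent.H602.DPO

open Module Subgroup Cfsg Cfsg.Agent.H167.OP Cfsg.Agent.H170.HL Cfsg.Agent.H988.CPi Cfsg.Agent.H560.HallKey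
  Cfsg.Agent.H553.OddHall Cfsg.Agent.H571.RV Cfsg.Agent.H572.RV Cfsg.Agent.H602.DP Cfsg.Agent.H969.DPi
  Cfsg.Agent.H817.DPi

universe u

variable {F : Type*} [Field F] [Finite F] {V : Type*} [AddCommGroup V] [Module F V] [Finite V]
  [FiniteDimensional F V] {K : Type*} [Group K] [Finite K]
  {ρ : Representation F K V} {f : V →ₗ[F] V →ₗ[F] F} {Q : V → F} {π : Set ℕ} {H : Subgroup K} {r t : ℕ}

/-- `C_V(T)` is nondegenerate -/
theorem nd_fix (h : Frame ρ f Q π H r t) : ND f (Orth f (WB ρ t H)) := by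
  have h1 : ND f (⊤ : Submodule F V) := fun u _ hx => h.nd u fun y => hx y trivial
  have h2 := Cfsg.Agent.H735.DP.nd_compl (U := ⊤) le_top (std_of h).nd_WB h1
  rwa [top_inf_eq] at h2

/-- `C(T)` preserves `C_V(T)` -/
theorem fix_inv (h : Frame ρ f Q π H r t) : ∀ u ∈ centralizer (Subgroup.closure (Zs ρ t H) : Set K),
    ∀ x ∈ Orth f (WB ρ t H), ρ u x ∈ Orth f (WB ρ t H) := by
  intro u hu x hx
  have h1 := (mem_Orth_CV h.toIsoG).mp hx
  refine (mem_Orth_CV h.toIsoG).mpr ?_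
  intro z hz
  have h2 := Subgroup.mem_centralizer_iff.mp hu z hz
  rw [← mul_ap, h2, mul_ap, h1 z hz]

/-- the large blocks -/
def Big (ρ : Representation F K V) (t : ℕ) (H : Subgroup K) : Prop :=
  ∃ J ⊆ bls ρ t H, 3 ≤ J.card ∧ ∀ U ∈ J, 16 ≤ Nat.card F ^ (finrank F U / 2) ∧
    (Odd (Nat.card F) → 29 ≤ Nat.card F ^ (finrank F U / 2))

/-- the bound for a frame -/
def OBS (S : Type u) [Group S] (q N : ℕ) : Prop :=
  ∀ (ι : Type) [Fintype ι] (m : ι → ℕ) (_ : ∀ i, 4 ≤ q ^ m i) (J : Finset ι) (_ : 3 ≤ J.card)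
    (_ : ∀ i ∈ J, 16 ≤ q ^ m i) (_ : Odd q → ∀ i ∈ J, 29 ≤ q ^ m i) (h δ c : ℕ)
    (_ : h ^ 2 ≤ 3 ^ (Fintype.card ι - 1)) (_ : N = 2 * ∑ i, m i + δ) (_ : δ ≤ 2) (_ : δ = 0 → c ≤ 1)
    (_ : δ = 1 → c ≤ 2) (_ : δ = 2 → c ≤ 2 * (q + 1)) (H : Subgroup S), H ≠ ⊤ →
    h * (∏ i, (q ^ m i + 1)) * (c * Nat.card (Cfsg.Out S)) < H.index

/-- **case C** -/
theorem caseC {S : Type u} [Group S] [Finite S] [IsSimpleGroup S] (hna : ¬ IsMulCommutative S)
    {F : Type} [Field F] [Finite F] {ι : Type} [Fintype ι] [DecidableEq ι] {Q : QuadraticForm F (ι → F)}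
    (φ : Cfsg.Omega F (⇑Q) →* S) (hφ : Function.Surjective φ)
    (hker : ∀ k, φ k = 1 → k * k = 1 ∧ ∀ x, k * x = x * k)
    {P : Subgroup S} {K B : Subgroup (MulAut S)} (hC : Cfg π P K B)
    {Y : Subgroup (Cfsg.Omega F (⇑Q))} (hY : IsPiHall π Y) (hYP : Y.map φ = P)
    (h : Frame (rep (OmRow.inc' (⇑Q))) (QuadraticMap.polarBilin Q) (⇑Q) π (Y.map (Cfsg.Omega F (⇑Q)).subtype) r t)
    (hd : finrank F (Orth (QuadraticMap.polarBilin Q)
      (WB (rep (OmRow.inc' (⇑Q))) t (Y.map (Cfsg.Omega F (⇑Q)).subtype))) ≤ 2)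
    (hJ : Big (rep (OmRow.inc' (⇑Q))) t (Y.map (Cfsg.Omega F (⇑Q)).subtype))
    (hOB : OBS S (Nat.card F) (Fintype.card ι)) : False := by
  classical
  set ρ := rep (OmRow.inc' (⇑Q)) with hρ
  set f := QuadraticMap.polarBilin Q with hf
  set H := Y.map (Cfsg.Omega F (⇑Q)).subtype with hH
  set T := Subgroup.closure (Zs ρ t H) with hTd
  have hfin : Finite (Cfsg.isometryGroup F (⇑Q)) := inferInstance
  have hsym : ∀ x y, f x y = f y x := fun x y => polar_symm' x y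
  have hTH : T ≤ H := closure_le_H
  have hHO : H ≤ Cfsg.Omega F (⇑Q) := Subgroup.map_subtype_le _
  have hTO : T ≤ Cfsg.Omega F (⇑Q) := hTH.trans hHO
  obtain ⟨B', K', hB', hidx, hPK, hK'⟩ := Cfsg.Agent.H462.DPK.cfg_bound hna hC
  -- `T` in `Omega`
  set T' := T.subgroupOf (Cfsg.Omega F (⇑Q)) with hT'
  have hT'Y : T' ≤ Y := by
    intro x hx
    obtain ⟨y, hy, hyx⟩ := hTH (Subgroup.mem_subgroupOf.mp hx)
    rwa [← Subtype.ext (show (y : Cfsg.isometryGroup F (⇑Q)) = x from hyx)]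
  have hcent : centralizer (T' : Set (Cfsg.Omega F (⇑Q))) = (centralizer (T : Set (Cfsg.isometryGroup F (⇑Q)))).subgroupOf _ := by
    ext x
    rw [Subgroup.mem_subgroupOf, Subgroup.mem_centralizer_iff, Subgroup.mem_centralizer_iff]
    constructor
    · intro hx z hz
      exact congrArg Subtype.val (hx ⟨z, hTO hz⟩ (Subgroup.mem_subgroupOf.mpr hz))
    · intro hx z hz
      exact Subtype.ext (hx z (Subgroup.mem_subgroupOf.mp hz))
  have h1 := Cfsg.Agent.H462.DPK.card_mul_le φ hφ hker hC.two hY.1 hT'Y hK' (by rw [hYP]; exact hPK)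
  rw [hYP, hcent] at h1
  have h2 : ((centralizer (T : Set (Cfsg.isometryGroup F (⇑Q)))).subgroupOf (Cfsg.Omega F (⇑Q))).relIndex Y =
      (centralizer (T : Set (Cfsg.isometryGroup F (⇑Q)))).relIndex H := by
    rw [hH, ← Subgroup.relIndex_comap]; rfl
  rw [h2] at h1
  have h3 : Nat.card ((centralizer (T : Set (Cfsg.isometryGroup F (⇑Q)))).subgroupOf (Cfsg.Omega F (⇑Q))) ≤ Nat.card (centralizer (T : Set (Cfsg.isometryGroup F (⇑Q)))) := by
    rw [← Subgroup.card_map_of_injective (Cfsg.Omega F (⇑Q)).subtype_injective]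
    refine Nat.card_mono (Set.toFinite _) ?_
    rintro _ ⟨x, hx, rfl⟩
    exact hx
  have h4 := card_cent_le h
  have h5 := cent_relIndex_le h
  have h6 := relIndex_sq_le h
  have h7 := sum_finrank h
  set δ := finrank F (Orth f (WB ρ t H)) with hδ
  set c := cnt ρ T (Orth f (WB ρ t H)) with hc
  set q := Nat.card F with hq
  have hbound : Nat.card P * Nat.card K' ≤
      (FB ρ t H).relIndex H * ((∏ U ∈ bls ρ t H, (q ^ (finrank F U / 2) + 1)) * c) :=
    h1.trans (Nat.mul_le_mul h5 (h3.trans h4))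
  -- the numbers
  have hev : ∀ U ∈ bls ρ t H, 2 * (finrank F U / 2) = finrank F U := by
    intro U hU
    obtain ⟨a, ha⟩ := even_bl h hsym (mem_bls.mp hU)
    omega
  obtain ⟨J, hJs, hJ3, hJb⟩ := hJ
  have hN : Fintype.card ι = 2 * ∑ U : {U // U ∈ bls ρ t H}, (finrank F (U : Submodule F (ι → F)) / 2) + δ := by
    rw [Finset.sum_coe_sort (bls ρ t H) (fun U => finrank F U / 2), Finset.mul_sum, Finset.sum_congr rfl hev, h7,
      Module.finrank_fintype_fun_eq_card]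
  have hprod : ∏ U : {U // U ∈ bls ρ t H}, (q ^ (finrank F (U : Submodule F (ι → F)) / 2) + 1) =
      ∏ U ∈ bls ρ t H, (q ^ (finrank F U / 2) + 1) :=
    Finset.prod_coe_sort (bls ρ t H) (fun U => q ^ (finrank F U / 2) + 1)
  have hlt := hOB {U // U ∈ bls ρ t H} (fun U => finrank F (U : Submodule F (ι → F)) / 2)
    (fun U => four_le h hsym (mem_bls.mp U.2)) (J.subtype (fun U => U ∈ bls ρ t H))
    (by
      rw [Finset.card_subtype, Finset.filter_true_of_mem fun U hU => hJs hU]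
      exact hJ3)
    (fun U hU => (hJb U (Finset.mem_subtype.mp hU)).1)
    (fun ho U hU => (hJb U (Finset.mem_subtype.mp hU)).2 ho)
    ((FB ρ t H).relIndex H) δ c (by
      rw [Fintype.card_coe]
      exact h6) hN hd
    (fun h0 => cnt_zero h0)
    (fun h0 => cnt_one (fun g v => h.isoQ g v) (nd_fix h) h0 (fix_inv h))
    (fun h0 => cnt_two (fun g v => h.isoQ g v) (nd_fix h) h0 (fix_inv h)) B' hB'
  rw [hprod] at hlt
  have h8 := hidx.trans (Nat.mul_le_mul_right _ hbound)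
  have h9 : (FB ρ t H).relIndex H * ((∏ U ∈ bls ρ t H, (q ^ (finrank F U / 2) + 1)) * c) * Nat.card (Cfsg.Out S) =
      (FB ρ t H).relIndex H * (∏ U ∈ bls ρ t H, (q ^ (finrank F U / 2) + 1)) * (c * Nat.card (Cfsg.Out S)) := by
    ring
  rw [h9] at h8
  omega

end Cfsg.Agent.H602.DPO
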