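import Cfsg.Agent.H602.DPO.Bl
import Cfsg.Agent.S0752

/-!
# S4247, row `POmega`: the order of the centraliser of `T` in a frame (helper602)
-/

set_option autoImplicit false
set_option linter.unusedSectionVars false

namespace Cfsg.Agent.H602.DPO

open Module Subgroup Cfsg Cfsg.Agent.H167.OP Cfsg.Agent.H170.HL Cfsg.Agent.H988.CPi Cfsg.Agent.H560.HallKey
  Cfsg.Agent.H553.OddHall Cfsg.Agent.H571.RV Cfsg.Agent.H572.RV Cfsg.Agent.H602.DP Cfsg.Agent.H969.DPi

variable {F : Type*} [Field F] [Finite F] {V : Type*} [AddCommGroup V] [Module F V] [Finite V]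
  [FiniteDimensional F V] {K : Type*} [Group K] [Finite K]
  {ρ : Representation F K V} {f : V →ₗ[F] V →ₗ[F] F} {Q : V → F} {π : Set ℕ} {H : Subgroup K} {r t : ℕ}

/-- the blocks of a frame -/
noncomputable def bls (ρ : Representation F K V) (t : ℕ) (H : Subgroup K) : Finset (Submodule F V) :=
  (Set.toFinite (Bl ρ t H)).toFinset

theorem mem_bls {U : Submodule F V} : U ∈ bls ρ t H ↔ U ∈ Bl ρ t H := by
  rw [bls, Set.Finite.mem_toFinset]

theorem CV_closure_le {S : Set K} {P : Submodule F V} (hP : ∀ z ∈ S, sp ρ z ≤ P) : CV ρ (Subgroup.closure S) ≤ P := by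
  refine CV_le fun d hd => ?_
  change sp ρ d ≤ P
  induction hd using Subgroup.closure_induction with
  | mem x hx => exact hP x hx
  | one =>
    rintro _ ⟨v, rfl⟩
    have h1 : (ρ 1 - 1) v = 0 := by
      show ρ 1 v - v = 0
      rw [one_ap, sub_self]
    rw [h1]
    exact P.zero_mem
  | mul a b _ _ ha hb =>
    rintro _ ⟨v, rfl⟩
    have h1 : (ρ (a * b) - 1) v = (ρ a (ρ b v) - ρ b v) + (ρ b v - v) := by
      show ρ (a * b) v - v = _
      rw [mul_ap]; abel
    rw [h1]
    exact P.add_mem (ha (mem_sp _)) (hb (mem_sp _))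
  | inv a _ ha =>
    rintro _ ⟨v, rfl⟩
    have h1 : (ρ a⁻¹ - 1) v = - (ρ a (ρ a⁻¹ v) - ρ a⁻¹ v) := by
      show ρ a⁻¹ v - v = _
      rw [ap_inv]; abel
    rw [h1]
    exact P.neg_mem (ha (mem_sp _))

theorem WB_le (h : Frame ρ f Q π H r t) {P : Submodule F V} (hP : ∀ U ∈ Bl ρ t H, U ≤ P) : WB ρ t H ≤ P :=
  CV_closure_le fun z hz => (std_of h).sp_le_of_bl hP _ z hz rfl

theorem bl_le_WB {U : Submodule F V} (hU : U ∈ Bl ρ t H) : U ≤ WB ρ t H := by
  obtain ⟨z, hz, rfl, -⟩ := hU
  exact range_le_CV ρ (Subgroup.subset_closure hz)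

/-- **the order of the centraliser** -/
theorem card_cent_le (h : Frame ρ f Q π H r t) :
    Nat.card (centralizer (Subgroup.closure (Zs ρ t H) : Set K)) ≤
      (∏ U ∈ bls ρ t H, (Nat.card F ^ (finrank F U / 2) + 1)) *
        cnt ρ (Subgroup.closure (Zs ρ t H)) (Orth f (WB ρ t H)) := by
  classical
  set T := Subgroup.closure (Zs ρ t H) with hTd
  let C := centralizer (T : Set K)
  let R (W : Submodule F V) : Set (W →ₗ[F] V) := Set.range fun u : C => (ρ (u : K)).domRestrict W
  let φ : C → (∀ U : bls ρ t H, R (U : Submodule F V)) × R (Orth f (WB ρ t H)) :=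
    fun u => (fun U => ⟨_, ⟨u, rfl⟩⟩, ⟨_, ⟨u, rfl⟩⟩)
  have hφ : Function.Injective φ := by
    intro u u' huu
    apply Subtype.ext
    apply h.inj
    have h1 := congrArg (fun p => p.1) huu
    have h2 := congrArg (fun p => p.2.1) huu
    let P : Submodule F V := LinearMap.ker (ρ (u : K) - ρ (u' : K))
    have hP : ∀ v, v ∈ P ↔ ρ (u : K) v = ρ (u' : K) v := fun v => by
      rw [LinearMap.mem_ker, LinearMap.sub_apply, sub_eq_zero]
    have h3 : WB ρ t H ≤ P := by
      apply WB_le h
      intro U hU v hv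
      rw [hP]
      have h4 := congrArg Subtype.val (congrFun h1 ⟨U, mem_bls.mpr hU⟩)
      exact congrArg (fun g : U →ₗ[F] V => g ⟨v, hv⟩) h4
    have h4 : Orth f (WB ρ t H) ≤ P := by
      intro v hv
      rw [hP]
      exact congrArg (fun g : (Orth f (WB ρ t H) : Submodule F V) →ₗ[F] V => g ⟨v, hv⟩) h2
    apply LinearMap.ext
    intro v
    rw [← hP]
    have h5 := (isCompl_Orth f (WB ρ t H) (std_of h).nd_WB).sup_eq_top
    have h6 : v ∈ WB ρ t H ⊔ Orth f (WB ρ t H) := by rw [h5]; trivial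
    exact (sup_le h3 h4) h6
  have h1 := Nat.card_le_card_of_injective φ hφ
  rw [Nat.card_prod, Nat.card_pi] at h1
  refine h1.trans (Nat.mul_le_mul_right _ ?_)
  rw [Finset.prod_coe_sort (bls ρ t H) (fun U => Nat.card (R U))]
  refine Finset.prod_le_prod' fun U hU => ?_
  exact Cfsg.Agent.H503.DP.cnt_le (ts_of h) (mn_of h (mem_bls.mp hU))

/-- the dimensions of the blocks -/
theorem sum_finrank (h : Frame ρ f Q π H r t) :
    ∑ U ∈ bls ρ t H, finrank F U + finrank F (Orth f (WB ρ t H)) = finrank F V := by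
  classical
  have hs := std_of h
  have key : ∀ B : Finset (Submodule F V), B ⊆ bls ρ t H →
      finrank F (B.sup id : Submodule F V) = ∑ U ∈ B, finrank F U := by
    intro B
    induction B using Finset.induction_on with
    | empty => intro _; simp
    | insert U B hU ih =>
      intro hB
      rw [Finset.insert_subset_iff] at hB
      rw [Finset.sup_insert, Finset.sum_insert hU, ← ih hB.2, id]
      rw [← Submodule.finrank_sup_add_finrank_inf_eq]
      have hUb := mem_bls.mp hB.1
      have h1 : B.sup id ≤ Orth f U := by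
        rw [Finset.sup_le_iff]
        intro U' hU' v hv u hu
        exact hs.bl_orth hUb (mem_bls.mp (hB.2 hU')) (fun he => hU (he ▸ hU')) u hu v hv
      have h2 : U ⊓ B.sup id = ⊥ := by
        rw [eq_bot_iff]
        rintro x ⟨hx, hx'⟩
        rw [Submodule.mem_bot]
        exact hs.nd_bl hUb x hx fun y hy => h1 hx' y hy
      rw [h2, finrank_bot, add_zero]
  have h1 : (bls ρ t H).sup id = WB ρ t H := by
    apply le_antisymm
    · rw [Finset.sup_le_iff]
      exact fun U hU => bl_le_WB (mem_bls.mp hU)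
    · exact WB_le h fun U hU => Finset.le_sup (f := id) (mem_bls.mpr hU)
  rw [← key _ (Finset.Subset.refl _), h1]
  exact Submodule.finrank_add_eq_of_isCompl (isCompl_Orth f (WB ρ t H) hs.nd_WB)

theorem even_of_alt {U : Type*} [AddCommGroup U] [Module F U] [FiniteDimensional F U] (B : LinearMap.BilinForm F U)
    (hA : B.IsAlt) (hnd : ∀ u, (∀ x, B u x = 0) → u = 0) : Even (finrank F U) := by
  obtain ⟨a, k, b, h1, h2, h3, h4⟩ := Cfsg.Agent.S0752.result B hA
  have hk : k = 0 := by
    by_contra hk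
    exact b.ne_zero (Sum.inr ⟨0, Nat.pos_of_ne_zero hk⟩) (hnd _ (h4 ⟨0, Nat.pos_of_ne_zero hk⟩))
  subst hk
  rw [Module.finrank_eq_card_basis b]
  simp

/-- minimal subspaces have even dimension in the symmetric case -/
theorem even_of_mn {T : Subgroup K} (h : TS ρ f Q t T) (hsym : ∀ x y, f x y = f y x) {U : Submodule F V}
    (hU : Mn ρ f T U) : Even (finrank F U) := by
  obtain ⟨z, hz, hact⟩ := hU.act
  -- `z ^ 2 - 1` is injective on `U`
  have hz2 : ∀ x ∈ U, ρ z (ρ z x) = x → x = 0 := by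
    have hzz : z * z ∈ T := T.mul_mem hz hz
    rcases eigen h hU (u := z * z) (fun w hw => h.ab w hw _ hzz) (fun x hx => hU.inv _ hzz x hx) (c := 1) (by ring)
      with h1 | h1
    · intro x hx hxx
      apply h1 x hx
      rw [mul_ap, hxx, one_smul]
    · exfalso
      obtain ⟨x, hx, hne⟩ := hact
      apply hne
      -- `z` has odd order on `U`
      obtain ⟨k, hk⟩ := h.hT ⟨z, hz⟩
      have hk' : z ^ t ^ k = 1 := congrArg Subtype.val hk
      have hodd : Odd (t ^ k) := h.hto.pow
      obtain ⟨j, hj⟩ := hodd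
      have h2 : ∀ n : ℕ, ρ ((z * z) ^ n) x = x := by
        intro n
        induction n with
        | zero => rw [pow_zero, one_ap]
        | succ n ih => rw [pow_succ, mul_ap, h1 x hx, one_smul, ih]
      have h3 : z * (z * z) ^ j = 1 := by
        rw [← hk', hj, ← pow_two, ← pow_mul, ← pow_succ']
      calc ρ z x = ρ z (ρ ((z * z) ^ j) x) := by rw [h2]
        _ = ρ (z * (z * z) ^ j) x := by rw [mul_ap]
        _ = x := by rw [h3, one_ap]
  let A : U →ₗ[F] V := (ρ z - ρ z⁻¹).domRestrict U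
  have hAU : ∀ x : U, A x ∈ U := fun x => U.sub_mem (hU.inv z hz x x.2) (hU.inv _ (T.inv_mem hz) x x.2)
  let A' : U →ₗ[F] U := A.codRestrict U hAU
  let B : LinearMap.BilinForm F U := (f.domRestrict₁₂ U U).comp A'
  have hB : ∀ x y : U, B x y = f (ρ z x) y - f (ρ z⁻¹ x) y := fun x y => by
    show f (ρ z (x : V) - ρ z⁻¹ (x : V)) (y : V) = _
    rw [map_sub, LinearMap.sub_apply]
  have hadj : ∀ x y : V, f (ρ z⁻¹ x) y = f x (ρ z y) := by
    intro x y
    have h1 := h.iso z (ρ z⁻¹ x) y
    rw [ap_inv] at h1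
    exact h1.symm
  have hBA : B.IsAlt := by
    intro x
    rw [hB, hadj, hsym (ρ z x), sub_self]
  apply even_of_alt B hBA
  intro x hx
  have h1 : A' x = 0 := by
    apply Subtype.ext
    apply hU.nd _ (A' x).2
    intro y hy
    rw [hsym]
    exact hx ⟨y, hy⟩
  have h2 : ρ z (x : V) = ρ z⁻¹ (x : V) := by
    have h3 : ρ z (x : V) - ρ z⁻¹ (x : V) = 0 := congrArg Subtype.val h1
    exact sub_eq_zero.mp h3
  apply Subtype.ext
  apply hz2 x x.2
  rw [h2, ap_inv]

theorem even_bl (h : Frame ρ f Q π H r t) (hsym : ∀ x y, f x y = f y x) {U : Submodule F V} (hU : U ∈ Bl ρ t H) :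
    Even (finrank F U) := even_of_mn (ts_of h) hsym (mn_of h hU)

end Cfsg.Agent.H602.DPO
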