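import Cfsg.Agent.H602.DPO.Perm

/-!
# S4247, row `POmega`: the part on `[V, T]` of an element which moves a block (helper602)
-/

set_option autoImplicit false
set_option linter.unusedSectionVars false

namespace Cfsg.Agent.H602.DPO

open Module Subgroup Cfsg Cfsg.Agent.H167.OP Cfsg.Agent.H170.HL Cfsg.Agent.H988.CPi Cfsg.Agent.H560.HallKey
  Cfsg.Agent.H553.OddHall Cfsg.Agent.H571.RV Cfsg.Agent.H572.RV Cfsg.Agent.H602.DP Cfsg.Agent.H969.DPi

variable {F : Type*} [Field F] [Finite F] {V : Type*} [AddCommGroup V] [Module F V] [Finite V]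
  [FiniteDimensional F V] {K : Type*} [Group K] [Finite K]
  {ρ : Representation F K V} {f : V →ₗ[F] V →ₗ[F] F} {Q : V → F} {π : Set ℕ} {H : Subgroup K} {r t : ℕ}

/-- an `s`-element of the Hall subgroup lies in a Sylow `s`-subgroup of `K` contained in `H` -/
theorem exists_sylT (h : IsoG ρ f Q) (h2 : 2 ∉ π) (hp : ∀ r ∈ π, r.Prime → (r : F) ≠ 0) (hH : IsPiHall π H)
    {s : ℕ} (hs : s.Prime) (hsπ : s ∈ π) {y : K} (hyH : y ∈ H) (hy : ∃ k : ℕ, y ^ s ^ k = 1) :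
    ∃ R : Subgroup K, SylT ρ f Q s H R ∧ y ∈ R := by
  have hsf := Fact.mk hs
  have h1 : IsPGroup s (Subgroup.zpowers (⟨y, hyH⟩ : H)) := by
    obtain ⟨k, hk⟩ := hy
    rintro ⟨x, hx⟩
    obtain ⟨i, rfl⟩ := Subgroup.mem_zpowers_iff.mp hx
    refine ⟨k, Subtype.ext (Subtype.ext ?_)⟩
    show (y ^ i) ^ s ^ k = 1
    rw [← zpow_natCast, ← zpow_mul, mul_comm, zpow_mul, zpow_natCast, hk, one_zpow]
  obtain ⟨R', hR'⟩ := h1.exists_le_sylow
  have h3 : IsPGroup s ((R' : Subgroup H).map H.subtype) := R'.2.map _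
  have h4 : ¬ s ∣ ((R' : Subgroup H).map H.subtype).index := by
    have h5 : ((R' : Subgroup H).map H.subtype).index = (R' : Subgroup H).index * H.index := by
      have := Subgroup.index_map (R' : Subgroup H) H.subtype
      rwa [H.ker_subtype, sup_bot_eq, H.range_subtype] at this
    rw [h5, hs.dvd_mul, not_or]
    exact ⟨R'.not_dvd_index, hH.2 s hs hsπ⟩
  let S : Sylow s K := h3.toSylow h4
  refine ⟨(R' : Subgroup H).map H.subtype, ?_, ?_⟩
  · exact
    { toStd := h.std h2 hp hH hs hsπ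
      hT := h3
      hTH := Subgroup.map_subtype_le _
      hmax := fun R hR hle => S.is_maximal' hR hle }
  · exact ⟨⟨y, hyH⟩, hR' (Subgroup.mem_zpowers _), rfl⟩

/-- **the element `y₁`** -/
theorem exists_part (h : Frame ρ f Q π H r t) :
    ∃ y ∈ H, (∃ k : ℕ, y ^ r ^ k = 1) ∧ (∀ v ∈ Orth f (WB ρ t H), ρ y v = v) ∧
      ∃ z ∈ Subgroup.closure (Zs ρ t H), y * z ≠ z * y := by
  obtain ⟨y, hyH, hyr, hyF⟩ := h.mv
  obtain ⟨R, hR, hyR⟩ := exists_sylT h.toIsoG h.two h.char h.hall h.rp h.rπ hyH hyr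
  have hs := std_of h
  have hmap : ∀ x ∈ R, (WB ρ t H).map (ρ x) = WB ρ t H := fun x hx => hs.WB_map (hR.hTH hx)
  obtain ⟨k, hk⟩ := h.toIsoG.exists_part (x := y) hs.nd_WB (fun u hu => mem_of_map (hmap y hyR) hu)
  have hkR := hR.part_mem hs.nd_WB hmap hyR hk
  refine ⟨k, hR.hTH hkR, ?_, hk.2, ?_⟩
  · obtain ⟨m, hm⟩ := hR.hT ⟨k, hkR⟩
    exact ⟨m, congrArg Subtype.val hm⟩
  · by_contra hcon
    push Not at hcon
    apply hyF
    intro U hU
    have hUW : U ≤ WB ρ t H := bl_le_WB hU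
    obtain ⟨z, hz, rfl, -⟩ := hU
    have h1 : (sp ρ z).map (ρ k) = sp ρ z := map_sp_of_comm (hcon z (Subgroup.subset_closure hz))
    refine Eq.trans ?_ h1
    ext v
    constructor
    · rintro ⟨u, hu, rfl⟩
      exact ⟨u, hu, hk.1 u (hUW hu)⟩
    · rintro ⟨u, hu, rfl⟩
      exact ⟨u, hu, (hk.1 u (hUW hu)).symm⟩

/-- `p`-elements commuting with `T` are trivial on `[V, T]` -/
theorem pel (h : Frame ρ f Q π H r t) {p : ℕ} (hp : p.Prime) [CharP F p] {u : K}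
    (hu : ∀ z ∈ Subgroup.closure (Zs ρ t H), z * u = u * z) (hup : ∃ j : ℕ, u ^ p ^ j = 1) :
    ∀ x ∈ WB ρ t H, ρ u x = x := by
  have hts := ts_of h
  exact Cfsg.Agent.H735.DP.pel_of hts (fun U hU u hu hi c hc => eigen hts hU hu hi hc)
    (fun U hU u hu => map_mem hts hU hu) hp hu hup

end Cfsg.Agent.H602.DPO
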