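import Cfsg.Agent.H602.DPO.CaseC
import Cfsg.Agent.H602.DPO.Parts
import Cfsg.Agent.H22.DPi.OmB
import Cfsg.Agent.H22.DPi.Class
import Cfsg.Agent.TitsThree.KSideO

/-!
# S4247, row `POmega`: the assembly for one quadratic form (helper602)
-/

set_option autoImplicit false
set_option linter.unusedSectionVars false

namespace Cfsg.Agent.H602.DPO

open Module Subgroup Cfsg Cfsg.Agent.H167.OP Cfsg.Agent.H170.HL Cfsg.Agent.H988.CPi Cfsg.Agent.H560.HallKey
  Cfsg.Agent.H553.OddHall Cfsg.Agent.H571.RV Cfsg.Agent.H572.RV Cfsg.Agent.H602.DP Cfsg.Agent.H969.DPi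
  Cfsg.Agent.H817.DPi Cfsg.Agent.LieClassical.OrthCore Cfsg.Agent.LieClassical.OrthTrans
  Cfsg.Agent.LieClassical.OrthFinite Cfsg.Agent.TitsThree.KSideO Cfsg.Agent.H22.DPi

universe u

variable {F : Type} [Field F] [Finite F] {ι : Type} [Fintype ι] [DecidableEq ι] {Q : QuadraticForm F (ι → F)}

theorem toOmega_act (hG : Good Q) (x : ↥(E Q)) (v : ι → F) :
    (x : (ι → F) ≃ₗ[F] (ι → F)) v = rep (OmRow.inc' (⇑Q)) (toOmega hG x : Cfsg.isometryGroup F (⇑Q)) v := by
  obtain ⟨g, rfl⟩ := (toOmega hG).symm.surjective x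
  rw [MulEquiv.apply_symm_apply]
  rfl

/-- the kernel -/
theorem center_sq (hG : Good Q) {p : ℕ} [CharP F p] {k : Cfsg.Omega F (⇑Q)} (hk : k ∈ center (Cfsg.Omega F (⇑Q))) :
    k * k = 1 := by
  obtain ⟨x, rfl⟩ := (toOmega hG).surjective k
  have hx : x ∈ center ↥(E Q) := by
    rw [Subgroup.mem_center_iff] at hk ⊢
    intro y
    apply (toOmega hG).injective
    rw [map_mul, map_mul]
    exact hk _
  have h1 : x * x = 1 := by
    have h2 := cen_pow hG (p := p) hx
    split_ifs at h2 with hp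
    · rw [pow_one] at h2
      rw [h2, one_mul]
    · rwa [pow_two] at h2
  rw [← map_mul, h1, map_one]

variable {π : Set ℕ} {r t : ℕ}

/-- **case B** -/
theorem caseB {S : Type u} [Group S] [Finite S] [IsSimpleGroup S] (hna : ¬ IsMulCommutative S) {p : ℕ} (hp : p.Prime)
    [CharP F p] (hG : Good Q) (φ : Cfsg.Omega F (⇑Q) →* S) (hφ : Function.Surjective φ)
    (hker : ∀ k, φ k = 1 → k ∈ center (Cfsg.Omega F (⇑Q)))
    {P : Subgroup S} {K B : Subgroup (MulAut S)} (hC : Cfg π P K B) (hI : IH π P K)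
    {Y : Subgroup (Cfsg.Omega F (⇑Q))} (hY : IsPiHall π Y) (hYP : Y.map φ = P)
    (h : Frame (rep (OmRow.inc' (⇑Q))) (QuadraticMap.polarBilin Q) (⇑Q) π (Y.map (Cfsg.Omega F (⇑Q)).subtype) r t)
    (h3 : 3 ≤ finrank F (Orth (QuadraticMap.polarBilin Q)
      (WB (rep (OmRow.inc' (⇑Q))) t (Y.map (Cfsg.Omega F (⇑Q)).subtype))))
    (h12 : 12 ≤ finrank F (WB (rep (OmRow.inc' (⇑Q))) t (Y.map (Cfsg.Omega F (⇑Q)).subtype)))
    (excl : ∀ (X : Type u) [Group X] [Finite X] [IsSimpleGroup X], ¬ IsMulCommutative X → IsLieTypeChar p X → Cls π X →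
      (∀ P : Subgroup X, IsPiHall π P → Group.IsNilpotent P) ∨
        Nonempty (X ≃* Matrix.ProjectiveSpecialLinearGroup (Fin 3) (ZMod 2)) ∨
        Nonempty (X ≃* Matrix.ProjectiveSpecialLinearGroup (Fin 5) (ZMod 2))) : False := by
  classical
  set ρ := rep (OmRow.inc' (⇑Q)) with hρ
  set f := QuadraticMap.polarBilin Q with hf
  set H := Y.map (Cfsg.Omega F (⇑Q)).subtype with hH
  set T := Subgroup.closure (Zs ρ t H) with hTd
  set V₁ := WB ρ t H with hV₁
  set V₀ := Orth f V₁ with hV₀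
  have hfin : Finite (Cfsg.isometryGroup F (⇑Q)) := inferInstance
  have hsym : ∀ x y, f x y = f y x := fun x y => polar_symm' x y
  have hTH : T ≤ H := closure_le_H
  have hHO : H ≤ Cfsg.Omega F (⇑Q) := Subgroup.map_subtype_le _
  have hTO : T ≤ Cfsg.Omega F (⇑Q) := hTH.trans hHO
  have hs := std_of h
  have hmemY : ∀ x : Cfsg.Omega F (⇑Q), (x : Cfsg.isometryGroup F (⇑Q)) ∈ H → x ∈ Y := by
    rintro x ⟨y, hy, hyx⟩
    rwa [← Subtype.ext (show (y : Cfsg.isometryGroup F (⇑Q)) = x from hyx)]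
  let e := toOmega hG
  have hact : ∀ (x : ↥(E Q)) (v : ι → F), (x : (ι → F) ≃ₗ[F] (ι → F)) v = ρ (e x : Cfsg.isometryGroup F (⇑Q)) v :=
    fun x v => toOmega_act hG x v
  let HE : Subgroup ↥(E Q) := Y.comap e.toMonoidHom
  let TE : Subgroup ↥(E Q) := (T.subgroupOf (Cfsg.Omega F (⇑Q))).comap e.toMonoidHom
  have hHEmap : HE.map e.toMonoidHom = Y := Subgroup.map_comap_eq_self_of_surjective e.surjective Y
  have hHE : ∀ x, x ∈ HE ↔ e x ∈ Y := fun x => Iff.rfl
  have hTE : ∀ x, x ∈ TE ↔ (e x : Cfsg.isometryGroup F (⇑Q)) ∈ T := fun x => Iff.rfl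
  have D : Dec Q V₀ V₁ :=
    { nd := hG.nondeg
      nd₀ := by
        intro x hx
        apply Subtype.ext
        apply nd_fix h x x.2
        intro y hy
        rw [hsym]
        exact hx ⟨y, hy⟩
      nd₁ := by
        intro x hx
        apply Subtype.ext
        apply hs.nd_WB x x.2
        intro y hy
        rw [hsym]
        exact hx ⟨y, hy⟩
      perp := by
        intro x hx y hy
        have h1 := hx y hy
        rw [hsym] at h1
        exact h1
      sup := by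
        rw [sup_comm]
        exact (isCompl_Orth f V₁ hs.nd_WB).sup_eq_top }
  obtain ⟨y, hyH, ⟨k, hyr⟩, hy₀, z, hz, hyz⟩ := exists_part h
  -- `y`, `z` in `E Q`
  have hyO := hHO hyH
  have hzO := hTO hz
  obtain ⟨ye, hye⟩ := e.surjective ⟨y, hyO⟩
  obtain ⟨ze, hze⟩ := e.surjective ⟨z, hzO⟩
  have hye' : (e ye : Cfsg.isometryGroup F (⇑Q)) = y := congrArg Subtype.val hye
  have hze' : (e ze : Cfsg.isometryGroup F (⇑Q)) = z := congrArg Subtype.val hze
  have hpowe : ∀ (x : ↥(E Q)) (n : ℕ), (e x : Cfsg.isometryGroup F (⇑Q)) ^ n = 1 → x ^ n = 1 := by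
    intro x n hx
    apply e.injective
    apply Subtype.ext
    rw [map_pow, map_one]
    exact hx
  refine om_b hna hp hC hI D h3 h12 (ψ := φ.comp e.toMonoidHom) (hφ.comp e.surjective) ?_ (H := HE) (T := TE) ?_ ?_ ?_ ?_
    ?_ ?_ (y := ye) (t := ze) ?_ ?_ ?_ ?_ ?_ excl
  · intro x hx
    have h1 := hker (e x) hx
    rw [Subgroup.mem_center_iff] at h1 ⊢
    intro w
    apply e.injective
    rw [map_mul, map_mul]
    exact h1 _
  · have h1 : Nat.card HE = Nat.card Y := by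
      rw [← hHEmap, Subgroup.card_map_of_injective e.injective]
    rw [h1]
    exact hY.1
  · rw [← Subgroup.map_map, hHEmap, hYP]
  · intro x hx
    exact hmemY _ (hTH hx)
  · intro x hx w hw
    rw [hTE, map_mul, map_mul, map_inv]
    have h1 : (e x : Cfsg.isometryGroup F (⇑Q)) ∈ H := ⟨e x, hx, rfl⟩
    exact (Subgroup.mem_normalizer_iff.mp (hs.le_norm h1) _).mp hw
  · intro x hx v hv
    rw [hact]
    exact (mem_Orth_CV h.toIsoG).mp hv _ hx
  · rintro x hx ⟨j, hj⟩ v hv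
    rw [hact]
    refine pel h hp (u := (e x : Cfsg.isometryGroup F (⇑Q))) ?_ ⟨j, ?_⟩ v hv
    · intro w hw
      obtain ⟨we, hwe⟩ := e.surjective ⟨w, hTO hw⟩
      have hwe' : (e we : Cfsg.isometryGroup F (⇑Q)) = w := congrArg Subtype.val hwe
      have h1 := hx we (by rw [hTE, hwe']; exact hw)
      have h2 : (e x : Cfsg.isometryGroup F (⇑Q)) * e we = e we * e x := by
        have := congrArg (fun a => ((e a : Cfsg.Omega F (⇑Q)) : Cfsg.isometryGroup F (⇑Q))) h1
        simpa only [map_mul, Subgroup.coe_mul] using this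
      rw [← hwe', h2]
    · have := congrArg (fun a => ((e a : Cfsg.Omega F (⇑Q)) : Cfsg.isometryGroup F (⇑Q))) hj
      simpa only [map_pow, map_one, SubmonoidClass.coe_pow, Subgroup.coe_one] using this
  · apply hmemY
    show (e ye : Cfsg.isometryGroup F (⇑Q)) ∈ H
    rw [hye']
    exact hyH
  · intro v hv
    rw [hact, hye']
    exact hy₀ v hv
  · rw [hTE, hze']
    exact hz
  · obtain ⟨j, hj⟩ := hs.closure_comm.2 ⟨z, hz⟩
    have hj' : z ^ t ^ j = 1 := congrArg Subtype.val hj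
    have h1 : orderOf ye ∣ r ^ k := orderOf_dvd_of_pow_eq_one (hpowe ye _ (by rw [hye']; exact hyr))
    have h2 : orderOf ze ∣ t ^ j := orderOf_dvd_of_pow_eq_one (hpowe ze _ (by rw [hze']; exact hj'))
    have h4 : Nat.Coprime (r ^ k) (t ^ j) :=
      Nat.Coprime.pow _ _ ((Nat.coprime_primes h.rp h.tp).mpr (Nat.ne_of_lt h.rt))
    exact Nat.Coprime.coprime_dvd_left h1 (Nat.Coprime.coprime_dvd_right h2 h4)
  · intro hcon
    apply hyz
    have := congrArg (fun a => ((e a : Cfsg.Omega F (⇑Q)) : Cfsg.isometryGroup F (⇑Q))) hcon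
    simp only [map_mul, Subgroup.coe_mul] at this
    rwa [hye', hze'] at this

/-- **Row for one quadratic form**, modulo the frame and the dimension of `[V, T]` -/
theorem row_of {S : Type u} [Group S] [Finite S] [IsSimpleGroup S] {p : ℕ} (hp : p.Prime) [CharP F p]
    (hG : Good Q) (hQ : OmRow.GoodQ Q) (e : S ≃* Cfsg.POmega F (⇑Q))
    (hOB : OBS S (Nat.card F) (Fintype.card ι))
    (hfr : 2 ∉ π → ∀ H : Subgroup (Cfsg.isometryGroup F (⇑Q)), IsPiHall π H → ¬ Group.IsNilpotent H →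
      ∃ r t : ℕ, Frame (rep (OmRow.inc' (⇑Q))) (QuadraticMap.polarBilin Q) (⇑Q) π H r t)
    (hdim : ∀ (H : Subgroup (Cfsg.isometryGroup F (⇑Q))) (r t : ℕ),
      Frame (rep (OmRow.inc' (⇑Q))) (QuadraticMap.polarBilin Q) (⇑Q) π H r t →
      3 ≤ finrank F (Orth (QuadraticMap.polarBilin Q) (WB (rep (OmRow.inc' (⇑Q))) t H)) →
      12 ≤ finrank F (WB (rep (OmRow.inc' (⇑Q))) t H))
    (hexc : 2 ∉ π → ∀ (X : Type u) [Group X] [Finite X] [IsSimpleGroup X], ¬ IsMulCommutative X →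
      IsLieTypeChar p X → Cls π X → (∀ P : Subgroup X, IsPiHall π P → Group.IsNilpotent P) ∨
      Nonempty (X ≃* Matrix.ProjectiveSpecialLinearGroup (Fin 3) (ZMod 2)) ∨
      Nonempty (X ≃* Matrix.ProjectiveSpecialLinearGroup (Fin 5) (ZMod 2))) : Row π S := by
  classical
  intro P K B hC hIH
  exfalso
  have hna : ¬ IsMulCommutative S := by
    intro hc
    apply hC.nnil
    have h1 : ∀ a b : P, a * b = b * a := fun a b => Subtype.ext (hc.is_comm.comm (a : S) b)
    exact @CommGroup.isNilpotent P { (inferInstance : Group P) with mul_comm := h1 }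
  have hfin : Finite (Cfsg.isometryGroup F (⇑Q)) := inferInstance
  let φ : Cfsg.Omega F (⇑Q) →* S :=
    (e.symm : Cfsg.POmega F (⇑Q) →* S).comp
      (QuotientGroup.mk' (Subgroup.center (Cfsg.Omega F (⇑Q))))
  have hφ : Function.Surjective φ :=
    e.symm.surjective.comp (QuotientGroup.mk'_surjective _)
  have hker : ∀ k, φ k = 1 → k ∈ center (Cfsg.Omega F (⇑Q)) := by
    intro k h
    have h1 : (QuotientGroup.mk' (Subgroup.center (Cfsg.Omega F (⇑Q)))) k = 1 :=
      e.symm.injective (h.trans (map_one e.symm).symm)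
    rwa [QuotientGroup.mk'_apply, QuotientGroup.eq_one_iff] at h1
  have hker2 : ∀ k, φ k = 1 → k * k = 1 ∧ ∀ x, k * x = x * k := fun k hk =>
    ⟨center_sq hG (p := p) (hker k hk), fun x => (Subgroup.mem_center_iff.mp (hker k hk) x).symm⟩
  obtain ⟨Y, hY, hYP⟩ := Cfsg.Agent.H462.DPK.exists_hall_over φ hφ (fun k hk => (hker2 k hk).2) hC.two hC.hall
  have hYn : ¬ Group.IsNilpotent Y := by
    intro hn
    apply hC.nnil
    rw [← hYP]
    exact Group.nilpotent_of_surjective (φ.subgroupMap Y) (φ.subgroupMap_surjective Y)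
  have hH := isPiHall_up hY (index_omega hQ hC.two)
  have hHn : ¬ Group.IsNilpotent (Y.map (Cfsg.Omega F (⇑Q)).subtype) := by
    intro hn
    apply hYn
    let eY := Y.equivMapOfInjective _ (Cfsg.Omega F (⇑Q)).subtype_injective
    exact Group.nilpotent_of_mulEquiv eY.symm
  obtain ⟨r, t, h⟩ := hfr hC.two _ hH hHn
  by_cases h3 : 3 ≤ finrank F (Orth (QuadraticMap.polarBilin Q)
      (WB (rep (OmRow.inc' (⇑Q))) t (Y.map (Cfsg.Omega F (⇑Q)).subtype)))
  · exact caseB hna hp hG φ hφ hker hC hIH hY hYP h h3 (hdim _ r t h h3) (hexc hC.two)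
  · obtain ⟨J, hJ, hJ3, hJb⟩ := Cfsg.Agent.H22.DPi.exists_class h (fun v => QuadraticMap.map_neg Q v)
    exact caseC hna φ hφ hker2 hC hY hYP h (by omega) ⟨J, hJ, hJ3, hJb⟩ hOB

end Cfsg.Agent.H602.DPO
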