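import Cfsg.Agent.H602.DPO.Cnt

/-!
# S4247, row `POmega`: the action on the blocks (helper602)
-/

set_option autoImplicit false
set_option linter.unusedSectionVars false

namespace Cfsg.Agent.H602.DPO

open Module Subgroup Cfsg Cfsg.Agent.H167.OP Cfsg.Agent.H170.HL Cfsg.Agent.H988.CPi Cfsg.Agent.H560.HallKey
  Cfsg.Agent.H553.OddHall Cfsg.Agent.H571.RV Cfsg.Agent.H572.RV Cfsg.Agent.H602.DP Cfsg.Agent.H969.DPi

theorem sq_le_three_pow {r : ℕ} (hr : 3 ≤ r) : r ^ 2 ≤ 3 ^ (r - 1) := by
  obtain ⟨s, rfl⟩ : ∃ s, r = s + 3 := ⟨r - 3, by omega⟩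
  induction s with
  | zero => norm_num
  | succ s ih =>
    have h1 := ih (by omega)
    have h2 : s + 1 + 3 - 1 = (s + 3 - 1) + 1 := by omega
    rw [h2, pow_succ (3 : ℕ)]
    have h3 : (s + 1 + 3) ^ 2 ≤ 3 * (s + 3) ^ 2 := by nlinarith
    omega

/-- Legendre -/
theorem pow_sq_le {r w a : ℕ} (hr : r.Prime) (hr3 : 3 ≤ r) (h : r ^ w ∣ a.factorial) : (r ^ w) ^ 2 ≤ 3 ^ (a - 1) := by
  have hrf := Fact.mk hr
  have h1 := sub_one_mul_padicValNat_factorial (p := r) a
  have h2 : w ≤ padicValNat r a.factorial :=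
    (padicValNat_dvd_iff_le (Nat.factorial_ne_zero a)).mp h
  have h3 : (r - 1) * w ≤ a - 1 := by
    rcases Nat.eq_zero_or_pos a with rfl | ha
    · have h4 : w = 0 := by
        by_contra hw
        have h5 : r ∣ Nat.factorial 0 := (dvd_pow_self r hw).trans h
        rw [Nat.factorial_zero, Nat.dvd_one] at h5
        omega
      rw [h4, mul_zero]; exact Nat.zero_le _
    · have h4 : 1 ≤ (Nat.digits r a).sum := by
        by_contra hcon
        have h5 : (Nat.digits r a).sum = 0 := by omega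
        have h6 : a = 0 := by
          have h7 : ∀ x ∈ Nat.digits r a, x = 0 := List.sum_eq_zero_iff.mp h5
          rw [← Nat.ofDigits_digits r a]
          generalize Nat.digits r a = l at h7
          induction l with
          | nil => rfl
          | cons b l ih =>
            rw [Nat.ofDigits_cons, ih (fun x hx => h7 x (List.mem_cons_of_mem _ hx)), h7 b List.mem_cons_self]
            simp
        omega
      have h5 : (r - 1) * w ≤ (r - 1) * padicValNat r a.factorial := Nat.mul_le_mul_left _ h2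
      omega
  calc (r ^ w) ^ 2 = (r ^ 2) ^ w := by rw [← pow_mul, ← pow_mul, mul_comm]
    _ ≤ (3 ^ (r - 1)) ^ w := Nat.pow_le_pow_left (sq_le_three_pow hr3) w
    _ = 3 ^ ((r - 1) * w) := by rw [← pow_mul]
    _ ≤ 3 ^ (a - 1) := Nat.pow_le_pow_right (by norm_num) h3

variable {F : Type*} [Field F] [Finite F] {V : Type*} [AddCommGroup V] [Module F V] [Finite V]
  [FiniteDimensional F V] {K : Type*} [Group K] [Finite K]
  {ρ : Representation F K V} {f : V →ₗ[F] V →ₗ[F] F} {Q : V → F} {π : Set ℕ} {H : Subgroup K} {r t : ℕ}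

/-- the action of `H` on the blocks -/
def actBl (ρ : Representation F K V) (t : ℕ) (H : Subgroup K) : H →* Equiv.Perm (Bl ρ t H) where
  toFun g :=
    { toFun := fun U => ⟨(U : Submodule F V).map (ρ (g : K)), Bl_map g.2 U.2⟩
      invFun := fun U => ⟨(U : Submodule F V).map (ρ (g : K)⁻¹), Bl_map (H.inv_mem g.2) U.2⟩
      left_inv := fun U => by
        apply Subtype.ext
        show ((U : Submodule F V).map (ρ (g : K))).map (ρ (g : K)⁻¹) = U
        rw [Cfsg.Agent.H572.RV.map_map, inv_mul_cancel, map_one']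
      right_inv := fun U => by
        apply Subtype.ext
        show ((U : Submodule F V).map (ρ (g : K)⁻¹)).map (ρ (g : K)) = U
        rw [Cfsg.Agent.H572.RV.map_map, mul_inv_cancel, map_one'] }
  map_one' := by
    ext1 U
    apply Subtype.ext
    exact map_one' _
  map_mul' := fun a b => by
    ext1 U
    apply Subtype.ext
    show (U : Submodule F V).map (ρ ((a : K) * b)) = ((U : Submodule F V).map (ρ (b : K))).map (ρ (a : K))
    rw [Cfsg.Agent.H572.RV.map_map]

theorem ker_actBl : (actBl ρ t H).ker = (FB ρ t H).subgroupOf H := by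
  ext g
  rw [MonoidHom.mem_ker, Subgroup.mem_subgroupOf]
  constructor
  · intro h U hU
    exact congrArg Subtype.val (DFunLike.congr_fun h ⟨U, hU⟩)
  · intro h
    ext1 U
    apply Subtype.ext
    exact h U U.2

theorem card_bls : (bls ρ t H).card = Nat.card (Bl ρ t H) := by
  rw [bls, ← Set.ncard_eq_toFinset_card _ (Set.toFinite _)]
  rfl

theorem relIndex_dvd : (FB ρ t H).relIndex H ∣ (bls ρ t H).card.factorial := by
  classical
  have hf : Finite (Bl ρ t H) := Set.toFinite _
  have h1 : (FB ρ t H).relIndex H = Nat.card (actBl ρ t H).range := by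
    rw [Subgroup.relIndex, ← ker_actBl, Subgroup.index_ker]
  rw [h1, card_bls, ← Nat.card_perm]
  exact Subgroup.card_subgroup_dvd_card _

/-- **`|H/H₀| ^ 2 ≤ 3 ^ (a - 1)`** -/
theorem relIndex_sq_le (h : Frame ρ f Q π H r t) : (FB ρ t H).relIndex H ^ 2 ≤ 3 ^ ((bls ρ t H).card - 1) := by
  have h0 : (FB ρ t H).relIndex H ≠ 0 := ne_zero_of_dvd_ne_zero Nat.card_pos.ne' (Subgroup.relIndex_dvd_card _ _)
  have h1 := Nat.eq_prime_pow_of_unique_prime_dvd h0 (fun {d} hd hdv => h.rgrp d hd hdv)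
  have h2 := relIndex_dvd (ρ := ρ) (t := t) (H := H)
  rw [h1] at h2 ⊢
  exact pow_sq_le h.rp h.r3 h2

theorem cent_relIndex_le (h : Frame ρ f Q π H r t) :
    (centralizer (Subgroup.closure (Zs ρ t H) : Set K)).relIndex H ≤ (FB ρ t H).relIndex H := by
  have h1 : FB ρ t H ⊓ H ≤ centralizer (Subgroup.closure (Zs ρ t H) : Set K) := by
    rintro x ⟨hx, hxH⟩
    rw [Subgroup.mem_centralizer_iff]
    intro z hz
    exact (h.cent x hxH hx z hz).symm
  have h2 : (centralizer (Subgroup.closure (Zs ρ t H) : Set K)).relIndex H ∣ (FB ρ t H ⊓ H).relIndex H :=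
    Subgroup.relIndex_dvd_of_le_left H h1
  rw [Subgroup.inf_relIndex_right] at h2
  have h0 : (FB ρ t H).relIndex H ≠ 0 := ne_zero_of_dvd_ne_zero Nat.card_pos.ne' (Subgroup.relIndex_dvd_card _ _)
  exact Nat.le_of_dvd (Nat.pos_of_ne_zero h0) h2

theorem five_le (h : Frame ρ f Q π H r t) : 5 ≤ t := by
  have h1 := h.rt
  have h3 := h.r3
  obtain ⟨a, ha⟩ := (ts_of h).hto
  omega

/-- `q ^ (dim U / 2) ≥ 4` for every block -/
theorem four_le (h : Frame ρ f Q π H r t) (hsym : ∀ x y, f x y = f y x) {U : Submodule F V} (hU : U ∈ Bl ρ t H) :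
    4 ≤ Nat.card F ^ (finrank F U / 2) := by
  have hts := ts_of h
  have h1 := Cfsg.Agent.H735.DP.dvd_of_mn hts (fun U hU u hu hi c hc => eigen hts hU hu hi hc) (mn_of h hU)
  obtain ⟨m, hm⟩ := even_bl h hsym hU
  have h2 : finrank F U / 2 = m := by omega
  rw [h2]
  have h3 : finrank F U = m + m := hm
  rw [h3] at h1
  have h5 := five_le h
  have hq : 2 ≤ Nat.card F := Finite.one_lt_card
  have hm0 : m ≠ 0 := by
    rintro rfl
    have h4 : U = ⊥ := Submodule.finrank_eq_zero.mp h3
    exact (std_of h).bl_ne_bot hU h4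
  have hqm : 2 ≤ Nat.card F ^ m := hq.trans (Nat.le_self_pow hm0 _)
  have h6 : Nat.card F ^ (m + m) - 1 = (Nat.card F ^ m + 1) * (Nat.card F ^ m - 1) := by
    rw [pow_add]
    generalize Nat.card F ^ m = x at *
    obtain ⟨y, rfl⟩ : ∃ y, x = y + 1 := ⟨x - 1, by omega⟩
    rw [Nat.add_sub_cancel]
    have : (y + 1) * (y + 1) = (y + 1 + 1) * y + 1 := by ring
    rw [this, Nat.add_sub_cancel]
  rw [h6, h.tp.dvd_mul] at h1
  rcases h1 with h1 | h1
  · have := Nat.le_of_dvd (by omega) h1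
    omega
  · have := Nat.le_of_dvd (by omega) h1
    omega

end Cfsg.Agent.H602.DPO
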